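import Cfsg.Agent.Lib.FPF.Frobenius
import Cfsg.Agent.Lib.Coprime.Action
import Cfsg.Agent.Lib.Fusion.Sylow
import Cfsg.Prelude.Def_OddOrderLocal

/-!
TI Hall subgroups with a normal complement in their normalizer.
-/

set_option autoImplicit false

namespace Cfsg.Agent.Lib.FPF

open Subgroup Lib.Char
open scoped Pointwise ComplexConjugate

universe u

variable {G : Type u} [Group G] {H : Subgroup G}

/-- Conjugation moving a nonidentity element of `H` into `H` normalises `H`. -/
theorem mem_normalizer_of_ti (hTI : Cfsg.IsTISubset (H : Set G)) {g x : G} (hx : x ∈ H) (hx1 : x ≠ 1)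
    (h : g * x * g⁻¹ ∈ H) : g ∈ normalizer (H : Set G) :=
  Classical.not_not.1 fun hg => hx1 (hTI g hg x hx h)

/-- A TI subgroup that is a Hall subgroup of its normaliser is a Hall subgroup. -/
theorem coprime_index_of_ti [Finite G] (hTI : Cfsg.IsTISubset (H : Set G))
    (hH : (Nat.card H).Coprime (H.subgroupOf (normalizer (H : Set G))).index) :
    (Nat.card H).Coprime H.index := by
  refine Nat.coprime_of_dvd fun p hp hpH hpi => ?_
  have := Fact.mk hp
  obtain ⟨P⟩ := (inferInstance : Nonempty (Sylow p H))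
  set P' := (P : Subgroup H).map H.subtype with hP'
  obtain ⟨R, hR⟩ := (P.2.map H.subtype : IsPGroup p P').exists_le_sylow
  have hP'card : Nat.card P' = p ^ (Nat.card H).factorization p := by
    rw [hP', card_map_of_injective H.subtype_injective]; exact P.card_eq_multiplicity
  by_cases he : P' = (R : Subgroup G)
  · exact R.not_dvd_index (hpi.trans (index_dvd_of_le (he ▸ map_subtype_le _)))
  have hlt := Lib.Fusion.lt_normalizer_inf R.2 (lt_of_le_of_ne hR he)
  obtain ⟨x, hx, hx1⟩ := P'.bot_or_exists_ne_one.resolve_left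
    (fun e => P.ne_bot_of_dvd_card hpH ((Subgroup.map_eq_bot_iff_of_injective _ H.subtype_injective).1 e))
  set S := (R : Subgroup G) ⊓ normalizer (P' : Set G) with hS
  have hSN : S ≤ normalizer (H : Set G) := fun y hy =>
    mem_normalizer_of_ti hTI (map_subtype_le _ hx) hx1
      (map_subtype_le _ ((mem_normalizer_iff.1 (mem_inf.1 hy).2 x).1 hx))
  obtain ⟨a, ha⟩ := IsPGroup.iff_card.1 (R.2.to_le (inf_le_left : S ≤ R))
  have h1 : p ^ a ∣ Nat.card H * (H.subgroupOf (normalizer (H : Set G))).index := by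
    rw [← ha, ← Lib.Coprime.card_subgroupOf (le_normalizer (H := H)), card_mul_index]
    exact card_dvd_of_le hSN
  have h2 : p ^ a ∣ Nat.card H := ((hH.coprime_dvd_left hpH).pow_left a).dvd_of_dvd_mul_right h1
  have h3 : a ≤ (Nat.card H).factorization p :=
    (Nat.Prime.pow_dvd_iff_le_factorization hp Nat.card_pos.ne').1 h2
  have h4 : Nat.card P' < Nat.card S :=
    lt_of_le_of_ne (card_le_of_le hlt.le) fun e => hlt.ne (eq_of_le_of_card_ge hlt.le e.ge)
  rw [hP'card, ha, Nat.pow_lt_pow_iff_right hp.one_lt] at h4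
  omega

variable [Fintype G]

omit [Fintype G] in
theorem pow_mem_of_complement {N K : Subgroup G} (hKN : K ≤ N) (hHN : H ≤ N)
    (hcompl : ∀ n ∈ N, ∃ h ∈ H, ∃ k ∈ K, n = h * k) (hcomm : ∀ h ∈ H, ∀ k ∈ K, h * k = k * h)
    {n : G} (hn : n ∈ N) : n ^ Nat.card K ∈ H := by
  obtain ⟨h, hh, k, hk, rfl⟩ := hcompl n hn
  rw [(show Commute h k from hcomm h hh k hk).mul_pow]
  have : k ^ Nat.card K = 1 := orderOf_dvd_iff_pow_eq_one.1 (K.orderOf_dvd_natCard hk)
  rw [this, mul_one]
  exact pow_mem hh _

/-- A normal complement of a TI Hall subgroup in the normaliser gives one in the group. -/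
theorem exists_complement_of_ti (hTI : Cfsg.IsTISubset (H : Set G)) {K : Subgroup G}
    (hKN : K ≤ normalizer (H : Set G)) (hcop : (Nat.card H).Coprime (Nat.card K))
    (hcomm : ∀ h ∈ H, ∀ k ∈ K, h * k = k * h)
    (hprod : ∀ n ∈ normalizer (H : Set G), ∃ h ∈ H, ∃ k ∈ K, n = h * k) :
    ∃ M : Subgroup G, M.Normal ∧ M.IsComplement' H := by
  classical
  set N := normalizer (H : Set G) with hN
  have := Fintype.ofFinite H
  have := Fintype.ofFinite N
  have hHN : H ≤ N := le_normalizer
  have hdis : ∀ x, x ∈ H → x ∈ K → x = 1 := fun x h1 h2 =>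
    mem_bot.1 (Lib.Coprime.inf_eq_bot_of_coprime hcop ▸ mem_inf.2 ⟨h1, h2⟩)
  choose! η hη κ hκ hdec using hprod
  have huniq : ∀ h ∈ H, ∀ k ∈ K, η (h * k) = h := by
    intro h hh k hk
    have hn : h * k ∈ N := mul_mem (hHN hh) (hKN hk)
    have e := hdec _ hn
    have h1 : (η (h * k))⁻¹ * h = κ (h * k) * k⁻¹ := by
      rw [inv_mul_eq_iff_eq_mul, ← mul_assoc, ← e, mul_inv_cancel_right]
    have := hdis _ (mul_mem (inv_mem (hη _ hn)) hh) (h1 ▸ mul_mem (hκ _ hn) (inv_mem hk))
    exact inv_mul_eq_one.1 this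
  -- the projection on H
  let proj : N →* H :=
    { toFun := fun n => ⟨η n, hη n n.2⟩
      map_one' := Subtype.ext (by simpa using huniq 1 (one_mem H) 1 (one_mem K))
      map_mul' := fun a b => Subtype.ext (by
        show η ((a : G) * b) = η a * η b
        conv_lhs => rw [hdec a a.2, hdec b b.2]
        rw [show η a * κ a * (η b * κ b) = η a * (κ a * η b) * κ b by group, ← hcomm _ (hη b b.2) _ (hκ a a.2),
          show η a * (η b * κ a) * κ b = η a * η b * (κ a * κ b) by group]
        exact huniq _ (mul_mem (hη a a.2) (hη b b.2)) _ (mul_mem (hκ a a.2) (hκ b b.2))) }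
  have hprojH : ∀ (h : H), proj ⟨h, hHN h.2⟩ = h := fun h =>
    Subtype.ext (show η (h : G) = h by simpa using huniq h h.2 1 (one_mem K))
  have hprojK : ∀ n : N, proj n = 1 → (n : G) ∈ K := fun n hn => by
    have h1 : η (n : G) = 1 := congrArg Subtype.val hn
    rw [hdec n n.2, h1, one_mul]
    exact hκ n n.2
  -- elements of N outside K only meet their conjugates inside N
  have hT : ∀ n : N, (n : G) ∉ K → ∀ x : G, x * n * x⁻¹ ∈ N → x ∈ N := by
    intro n hnK x hx
    have hp1 : (n : G) ^ Nat.card K ≠ 1 := by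
      intro e
      apply hnK
      apply hprojK
      have hnp : proj n ^ Nat.card K = 1 := by
        rw [← map_pow, show n ^ Nat.card K = 1 from Subtype.ext (by simpa using e), map_one]
      rw [← orderOf_eq_one_iff]
      exact Nat.eq_one_of_dvd_coprimes hcop (orderOf_dvd_natCard _) (orderOf_dvd_of_pow_eq_one hnp)
    have hprod' : ∀ m ∈ N, ∃ h ∈ H, ∃ k ∈ K, m = h * k := fun m hm => ⟨_, hη m hm, _, hκ m hm, hdec m hm⟩
    refine mem_normalizer_of_ti hTI (pow_mem_of_complement hKN hHN hprod' hcomm n.2) hp1 ?_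
    rw [← conj_pow]
    exact pow_mem_of_complement hKN hHN hprod' hcomm hx
  set U : Set G := {g | ∀ x : G, ∀ hx : x * g * x⁻¹ ∈ N, proj ⟨_, hx⟩ = 1} with hU
  have key : ∀ θ : IrrCharacter H, ∃ χ : G → ℂ, IsCharacter G χ ∧ (∀ h : H, χ h = (θ : H → ℂ) h) ∧
      ∀ g ∈ U, χ g = χ 1 := by
    intro θ
    obtain ⟨d, hd⟩ : ∃ d : ℕ, (θ : H → ℂ) 1 = d := ⟨_, apply_one_eq_charDegree (isCharacter_of_isIrr θ.2)⟩
    set θN : N → ℂ := fun n => (θ : H → ℂ) (proj n) with hθN
    have hsurj : Function.Surjective proj := fun h => ⟨_, hprojH h⟩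
    have hirr : IsIrrCharacter N θN := isIrrCharacter_comp θ.2 proj hsurj
    by_cases hθ : (θ : H → ℂ) = fun _ => 1
    · exact ⟨fun _ => 1, isCharacter_one, fun h => by rw [hθ], fun _ _ => rfl⟩
    set one : N → ℂ := fun _ => 1 with hone
    have hθ' : θN ≠ one := fun e => hθ (funext fun h => by
      obtain ⟨n, rfl⟩ := hsurj h
      exact congrFun e n)
    set φ : N → ℂ := (d : ℂ) • one - θN with hφ
    have hφc : IsClassFunction N φ :=
      isClassFunction_sub (isClassFunction_smul _ (isClassFunction_of_isCharacter isCharacter_one))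
        (isClassFunction_of_isIrr hirr)
    have hφ1 : ∀ n : N, proj n = 1 → φ n = 0 := fun n hn => by simp [hφ, hone, hθN, hn, hd]
    have hzero : ∀ g ∈ U, indFun N φ g = 0 := by
      intro g hg
      simp only [indFun]
      rw [Finset.sum_eq_zero fun x _ => ?_, mul_zero]
      by_cases hm : x⁻¹ * g * x ∈ N
      · rw [extendByZero_mem N φ hm]
        refine hφ1 _ ?_
        have := hg x⁻¹ (by simpa using hm)
        simpa using this
      · exact extendByZero_not_mem N φ hm
    have hres : ∀ n : N, indFun N φ n = φ n := by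
      intro n
      by_cases hnK : (n : G) ∈ K
      · have h1 : ∀ m : N, (m : G) ∈ K → proj m = 1 := fun m hm =>
          Subtype.ext (show η (m : G) = 1 by simpa using huniq 1 (one_mem H) m hm)
        rw [hφ1 n (h1 n hnK)]
        refine hzero _ fun x hx => ?_
        by_contra hne
        have hmK : x * n * x⁻¹ ∉ K := fun hmK => hne (h1 ⟨_, hx⟩ hmK)
        have hxN : x⁻¹ ∈ N := hT ⟨_, hx⟩ hmK x⁻¹ (by
          rw [show x⁻¹ * (x * (n : G) * x⁻¹) * x⁻¹⁻¹ = n by group]; exact n.2)
        apply hne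
        rw [show (⟨x * n * x⁻¹, hx⟩ : N) = (⟨x⁻¹, hxN⟩ : N)⁻¹ * n * ⟨x⁻¹, hxN⟩ from Subtype.ext (by simp),
          map_mul, map_mul, h1 n hnK, mul_one, map_inv, inv_mul_cancel]
      · have hx : ∀ x : G, extendByZero N φ (x⁻¹ * n * x) = if x ∈ N then φ n else 0 := by
          intro x
          by_cases hxN : x ∈ N
          · rw [if_pos hxN]
            have := extendByZero_conj hφc (N.inv_mem hxN) (n : G)
            rw [inv_inv, extendByZero_coe] at this
            exact this
          · rw [if_neg hxN, extendByZero_not_mem]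
            intro hm
            have := hT n hnK x⁻¹ (by rwa [inv_inv])
            exact hxN (by simpa using inv_mem this)
        simp only [indFun, hx]
        rw [← Finset.sum_filter, Finset.sum_const, nsmul_eq_mul, ← Fintype.card_subtype,
          ← Nat.card_eq_fintype_card, ← mul_assoc]
        exact (congrArg (· * φ n) (inv_mul_cancel₀ (card_ne_zero_complex N))).trans (one_mul _)
    set oneG : G → ℂ := fun _ => 1 with honeG
    have honeR : (fun n : N => oneG n) = one := rfl
    set χ : G → ℂ := (d : ℂ) • oneG - indFun N φ with hχ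
    have hgen : IsGeneralizedCharacter G χ := by
      refine ⟨(d : ℕ) • oneG + indFun N θN, (d : ℕ) • indFun N one,
        isCharacter_add (isCharacter_nsmul isCharacter_one d)
          (isCharacter_indFun N (isCharacter_of_isIrr hirr)),
        isCharacter_nsmul (isCharacter_indFun N isCharacter_one) d, ?_⟩
      rw [hχ, hφ, indFun_sub, indFun_smul, Nat.cast_smul_eq_nsmul, Nat.cast_smul_eq_nsmul]
      abel
    have h11 : classInner one one = 1 := classInner_irr_self isIrrCharacter_one
    have hθθ : classInner θN θN = 1 := classInner_irr_self hirr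
    have h1θ : classInner one θN = 0 := classInner_irr_ne isIrrCharacter_one hirr (Ne.symm hθ')
    have hθ1 : classInner θN one = 0 := classInner_irr_ne hirr isIrrCharacter_one hθ'
    have hnorm : classInner χ χ = 1 := by
      have hA : classInner oneG oneG = 1 := classInner_irr_self isIrrCharacter_one
      have hB : classInner (indFun N φ) oneG = (d : ℂ) := by
        rw [classInner_indFun N φ (isClassFunction_of_isCharacter isCharacter_one), honeR, hφ,
          classInner_sub_left, classInner_smul_left, h11, hθ1]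
        simp
      have hC : classInner oneG (indFun N φ) = (d : ℂ) := by
        rw [classInner_conj_symm, hB, map_natCast]
      have hD : classInner (indFun N φ) (indFun N φ) = (d : ℂ) * d + 1 := by
        rw [classInner_indFun N φ (isClassFunction_indFun N φ), show (fun n : N => indFun N φ n) = φ from funext hres, hφ]
        simp only [classInner_sub_left, classInner_sub_right, classInner_smul_left, classInner_smul_right,
          h11, hθθ, h1θ, hθ1, map_natCast]
        ring
      rw [hχ]
      simp only [classInner_sub_left, classInner_sub_right, classInner_smul_left, classInner_smul_right,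
        hA, hB, hC, hD, map_natCast]
      ring
    have hone_mem : (1 : G) ∈ U := fun x hx => by
      rw [show (⟨x * 1 * x⁻¹, hx⟩ : N) = 1 from Subtype.ext (by simp), map_one]
    have hχ1 : χ 1 = d := by simp [hχ, honeG, hzero 1 hone_mem]
    refine ⟨χ, isCharacter_of_isIrr (isIrr_of_generalized_norm_one hgen hnorm hχ1), fun h => ?_, fun g hg => ?_⟩
    · show (d : ℂ) • oneG (h : G) - indFun N φ h = _
      rw [hres ⟨h, hHN h.2⟩]
      simp [hφ, honeG, hone, hθN, hprojH]
    · rw [hχ1]
      simp [hχ, honeG, hzero g hg]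
  choose χ hχ hres hker using key
  set M : Subgroup G := ⨅ θ : IrrCharacter H, charKer (χ θ) with hM
  have hMn : M.Normal := normal_iInf_normal fun θ => charKer_normal (hχ θ)
  have hinf : M ⊓ H = ⊥ := by
    rw [eq_bot_iff]
    intro x hx
    obtain ⟨hxN, hxH⟩ := mem_inf.1 hx
    rw [hM, mem_iInf] at hxN
    refine mem_bot.2 (congrArg Subtype.val (eq_one_of_forall_irr (G := H) (g := ⟨x, hxH⟩) fun θ => ?_))
    have h1 := (mem_charKer (hχ θ)).1 (hxN θ)
    have h2 := hres θ ⟨x, hxH⟩
    have h3 := hres θ 1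
    simp only at h2
    rw [OneMemClass.coe_one] at h3
    rw [← h2, ← h3]
    exact h1
  refine ⟨M, hMn, ?_⟩
  have hMle : Nat.card M * Nat.card H ≤ Nat.card G := by
    have := Lib.Coprime.card_sup_mul_card_inf M H
    rw [inf_comm, hinf, card_bot, mul_one] at this
    rw [mul_comm, ← this]
    exact card_le_card_group _
  -- counting the elements without conjugates in N \ K
  have hUc : Nat.card G ≤ Nat.card U * Nat.card H := by
    have hTsub : Uᶜ ⊆ (fun y : (G ⧸ N) × {n : N // proj n ≠ 1} => y.1.out * (y.2.1 : G) * y.1.out⁻¹) '' Set.univ := by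
      intro g hg
      rw [hU, Set.mem_compl_iff, Set.mem_setOf_eq] at hg
      push Not at hg
      obtain ⟨x, hx, hne⟩ := hg
      let q : G ⧸ N := (x⁻¹ : G)
      have hm : q.out⁻¹ * x⁻¹ ∈ N := QuotientGroup.eq.1 q.out_eq
      let t : N := ⟨q.out⁻¹ * x⁻¹, hm⟩
      refine ⟨(q, ⟨t * ⟨_, hx⟩ * t⁻¹, fun e => hne ?_⟩), trivial, ?_⟩
      · rw [map_mul, map_mul, map_inv] at e
        have e' := congrArg (fun w => (proj t)⁻¹ * w * proj t) e
        simpa [mul_assoc] using e'
      · simp [t]
        group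
    have h1 : Set.ncard (Uᶜ) ≤ N.index * Nat.card {n : N // proj n ≠ 1} := by
      refine (Set.ncard_le_ncard hTsub).trans ?_
      refine (Set.ncard_image_le Set.finite_univ).trans ?_
      rw [Set.ncard_univ, Nat.card_prod]
      rfl
    have hker : Nat.card proj.ker * Nat.card H = Nat.card N := by
      rw [← Nat.card_congr (QuotientGroup.quotientKerEquivOfSurjective proj fun h => ⟨_, hprojH h⟩).toEquiv,
        mul_comm, ← card_eq_card_quotient_mul_card_subgroup]
    have h2 : Nat.card {n : N // proj n ≠ 1} + Nat.card proj.ker = Nat.card N := by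
      rw [add_comm, ← Nat.card_sum]
      exact Nat.card_congr (Equiv.sumCompl fun n : N => proj n = 1)
    have h3 := N.index_mul_card
    have h4 := Set.ncard_add_ncard_compl U
    rw [← Nat.card_coe_set_eq U] at h4
    have h5 : N.index * Nat.card proj.ker ≤ Nat.card U := by
      have : N.index * Nat.card N = N.index * Nat.card {n : N // proj n ≠ 1} + N.index * Nat.card proj.ker := by
        rw [← mul_add, h2]
      omega
    calc Nat.card G = N.index * Nat.card proj.ker * Nat.card H := by rw [mul_assoc, hker, h3]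
      _ ≤ Nat.card U * Nat.card H := Nat.mul_le_mul_right _ h5
  have hUM : Nat.card U ≤ Nat.card M :=
    Nat.card_mono (Set.toFinite _) fun g hg => by
      rw [hM, SetLike.mem_coe, mem_iInf]
      exact fun θ => (mem_charKer (hχ θ)).2 (hker θ g hg)
  refine isComplement'_of_card_mul_and_disjoint (le_antisymm hMle (hUc.trans ?_)) (disjoint_iff.2 hinf)
  exact Nat.mul_le_mul_right _ hUM

omit [Fintype G] in
/-- The conjugates of `H` meet a `π`-subgroup `L` in a single class. -/
theorem le_conj_of_ti [Finite G] {L : Subgroup G} (hTI : Cfsg.IsTISubset (H : Set G))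
    (hN : ∀ g : G, ∀ l ∈ L, g⁻¹ * l * g ∈ normalizer (H : Set G) → g⁻¹ * l * g ∈ H)
    (hcov : ∀ l ∈ L, l ≠ 1 → ∃ g : G, g⁻¹ * l * g ∈ H) (hL : L ≠ ⊥) :
    ∃ g : G, L ≤ MulAut.conj g • H := by
  classical
  by_contra hno
  push Not at hno
  have hfc : ∀ g : G, (MulAut.conj g • H).subgroupOf L ≠ ⊥ →
      Cfsg.IsFrobeniusComplement ((MulAut.conj g • H).subgroupOf L) := by
    intro g hg
    refine ⟨hg, fun h => hno g (subgroupOf_eq_top.1 h), fun l hl => ?_⟩
    rw [eq_bot_iff]
    intro x hx
    obtain ⟨hx1, hx2⟩ := mem_inf.1 hx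
    rw [Lib.Coprime.mem_conj_smul, mem_subgroupOf, Lib.Coprime.mem_conj_smul] at hx2
    rw [mem_subgroupOf, Lib.Coprime.mem_conj_smul] at hx1
    rw [mem_bot]
    by_contra hne
    apply hl
    rw [mem_subgroupOf, Lib.Coprime.mem_conj_smul]
    refine hN g l l.2 ?_
    have := mem_normalizer_of_ti hTI hx1 (fun e => hne (Subtype.ext (by
      have := congrArg (fun w => g * w * g⁻¹) e
      simpa [mul_assoc] using this))) (g := g⁻¹ * (l : G)⁻¹ * g) (by simpa [mul_assoc] using hx2)
    simpa [mul_assoc] using inv_mem this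
  obtain ⟨l, hl, hl1⟩ := L.bot_or_exists_ne_one.resolve_left hL
  obtain ⟨g, hg⟩ := hcov l hl hl1
  have hne : ∀ g : G, ∀ y : L, y ≠ 1 → g⁻¹ * (y : G) * g ∈ H → (MulAut.conj g • H).subgroupOf L ≠ ⊥ := by
    intro g y hy1 hy h
    apply hy1
    rw [← mem_bot, ← h, mem_subgroupOf, Lib.Coprime.mem_conj_smul]
    exact hy
  have hD := hne g ⟨l, hl⟩ (fun e => hl1 (congrArg Subtype.val e)) hg
  set D := (MulAut.conj g • H).subgroupOf L with hDdef
  have hall : ∀ y : L, y ≠ 1 → y ∈ Lib.Hall.covered D := by
    intro y hy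
    obtain ⟨b, hb⟩ := hcov y y.2 (fun e => hy (Subtype.ext e))
    have hD' := hne b y hy hb
    obtain ⟨z, ⟨hz1, c, hc⟩, ⟨-, e, he⟩⟩ := Lib.Hall.covered_inter (hfc g hD) (hfc b hD')
    refine ⟨hy, e⁻¹ * c, ?_⟩
    rw [Lib.Coprime.mem_conj_smul, mem_subgroupOf, Lib.Coprime.mem_conj_smul] at hc he ⊢
    set t := b⁻¹ * (e : G)⁻¹ * c * g with ht
    have h1 : t ∈ normalizer (H : Set G) := by
      refine mem_normalizer_of_ti hTI hc ?_ ?_
      · intro h
        apply hz1
        have : ((z : L) : G) = 1 := by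
          calc ((z : L) : G) = (c : G) * g * (g⁻¹ * ((c⁻¹ * z * c : L) : G) * g) * g⁻¹ * (c : G)⁻¹ := by
                push_cast; group
            _ = 1 := by rw [h]; group
        exact Subtype.ext this
      · have : t * (g⁻¹ * ((c⁻¹ * z * c : L) : G) * g) * t⁻¹ = b⁻¹ * ((e⁻¹ * z * e : L) : G) * b := by
          rw [ht]; push_cast; group
        rw [this]
        exact he
    have h2 := (mem_normalizer_iff.1 (inv_mem h1) _).1 hb
    have : g⁻¹ * (((e⁻¹ * c)⁻¹ * y * (e⁻¹ * c) : L) : G) * g = t⁻¹ * (b⁻¹ * (y : G) * b) * t⁻¹⁻¹ := by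
      rw [ht]; push_cast; group
    rw [this]
    exact h2
  have h := Set.ncard_le_ncard (show (Set.univ \ {1} : Set L) ⊆ Lib.Hall.covered D from fun y hy => hall y hy.2)
  rw [Set.ncard_sdiff_singleton_of_mem (Set.mem_univ _), Set.ncard_univ, ← Nat.card_coe_set_eq] at h
  have h2 : Nat.card (Lib.Hall.covered D) + D.index = Nat.card L := Lib.Hall.card_covered_add_index (hfc g hD)
  have h3 : 1 < D.index := one_lt_index_of_ne_top (hfc g hD).2.1
  have h6 : (Lib.Hall.covered D).ncard = Nat.card (Lib.Hall.covered D) := (Nat.card_coe_set_eq _).symm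
  omega

end Cfsg.Agent.Lib.FPF
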